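import Mathlib
import Cfsg.Agent.H160.QModel
import Cfsg.Agent.H899.O7.Zass

/-!
# The nonsplit torus of an odd-dimensional quadratic space, and its inversion (helper170)

* `card_pow` : `q ^ ((q^(2d) - 1) / 2)`-arithmetic;
* `model_core` : on the field `L` of degree `2 d` with the form `Tr (x x^(q^d))`, multiplication by a generator of the
  group of elements of norm one to the subfield of degree `d` has determinant one and spinor sign `-1`, and is
  inverted by the isometry `x ↦ x ^ (q ^ d)`;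
* `exists_model` : in every nondegenerate quadratic space of dimension `2 d + 1` there is an isometry of order
  `q ^ d + 1` inverted by an isometry of determinant one and spinor sign one.
-/

set_option autoImplicit false

namespace Cfsg.Agent.H170.EP

open QuadraticMap Module
open Cfsg.Agent.LieClassical.OrthCore Cfsg.Agent.H160.QSpin Cfsg.Agent.H160.QDisc Cfsg.Agent.H160.QSplit
  Cfsg.Agent.H160.QModel

variable {F : Type*} [Field F] [Fintype F] [DecidableEq F]

omit [DecidableEq F] in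
/-- norms that are squares -/
theorem isSquare_norm_iff (h2 : (2 : F) ≠ 0) {d q e : ℕ} (hq : q = Fintype.card F) (he : q = 2 * e + 1) (hd : d ≠ 0)
    {L : Type} [Field L] [Algebra F L] [Finite L] (hcard : Nat.card L = q ^ (2 * d)) {y : L} (hy : y ≠ 0) :
    IsSquare (Algebra.norm F y) ↔ y ^ ((q ^ d - 1) * ((q ^ d + 1) / 2)) = 1 := by
  have hq1 : 1 < q := hq ▸ Fintype.one_lt_card
  have hqd : 1 < q ^ d := Nat.one_lt_pow hd hq1
  have hchar : ringChar F ≠ 2 := by
    intro h
    apply h2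
    have := ringChar.spec F 2
    rw [h] at this
    exact_mod_cast this.2 dvd_rfl
  have hn : Algebra.norm F y ≠ 0 := by
    rw [Ne, Algebra.norm_eq_zero_iff]
    exact hy
  have hfac : q ^ (2 * d) - 1 = (q ^ d - 1) * (q ^ d + 1) := by
    have := Nat.sq_sub_sq (q ^ d) 1
    rw [← pow_mul, one_pow, mul_comm d 2] at this
    rw [this, mul_comm]
  have hev : 2 ∣ q ^ d + 1 := by
    have : Odd (q ^ d) := Odd.pow ⟨e, he⟩
    obtain ⟨k, hk⟩ := this
    exact ⟨k + 1, by omega⟩
  have hdv : q - 1 ∣ q ^ (2 * d) - 1 := by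
    have := Nat.sub_dvd_pow_sub_pow q 1 (2 * d)
    rwa [one_pow] at this
  have hexp : (q ^ (2 * d) - 1) / (q - 1) * e = (q ^ d - 1) * ((q ^ d + 1) / 2) := by
    obtain ⟨s, hs⟩ := hdv
    obtain ⟨t, ht⟩ := hev
    have h1 : (q ^ (2 * d) - 1) / (q - 1) = s := by
      rw [hs, Nat.mul_div_cancel_left _ (by omega)]
    have h3 : (q ^ d + 1) / 2 = t := by omega
    rw [h1, h3]
    have h4 : 2 * (s * e) = 2 * ((q ^ d - 1) * t) := by
      calc 2 * (s * e) = (q - 1) * s := by
            have : q - 1 = 2 * e := by omega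
            rw [this]; ring
        _ = (q ^ d - 1) * (q ^ d + 1) := by rw [← hs, hfac]
        _ = 2 * ((q ^ d - 1) * t) := by rw [ht]; ring
    omega
  rw [FiniteField.isSquare_iff hchar hn]
  have h5 : Fintype.card F / 2 = e := by rw [← hq]; omega
  rw [h5, ← (algebraMap F L).injective.eq_iff, map_pow, map_one, FiniteField.algebraMap_norm_eq_pow, hcard,
    Nat.card_eq_fintype_card, ← hq, ← pow_mul, hexp]

theorem model_core (h2 : (2 : F) ≠ 0) {d q : ℕ} (hq : q = Fintype.card F) (hd : d ≠ 0) {L : Type} [Field L] [Algebra F L]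
    [Finite L] [FiniteDimensional F L] [Algebra.IsSeparable F L]
    (hfr : finrank F L = 2 * d) (hcard : Nat.card L = q ^ (2 * d)) (σ : L ≃ₐ[F] L)
    (hσ : ∀ x : L, σ x = x ^ (q ^ d)) :
    ∃ (Q : QuadraticForm F L) (g s : L ≃ₗ[F] L), Nondeg Q ∧ El Q (-1) g ∧ s ∈ O Q ∧ s * g * s⁻¹ = g⁻¹ ∧
      orderOf g = q ^ d + 1 := by
  have hq1 : 1 < q := hq ▸ Fintype.one_lt_card
  obtain ⟨e, he⟩ := Cfsg.Agent.H160.QUpper.card_odd_eq (F := F) h2
  rw [← hq] at he
  have he0 : 0 < e := by omega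
  obtain ⟨ζ, hζ⟩ := exists_gen hcard
  have hqd : 1 < q ^ d := Nat.one_lt_pow hd hq1
  have hqd3 : 3 ≤ q ^ d := by
    have h3 : Odd (q ^ d) := Odd.pow ⟨e, he⟩
    obtain ⟨k, hk⟩ := h3
    omega
  have hfac : q ^ (2 * d) - 1 = (q ^ d - 1) * (q ^ d + 1) := by
    have := Nat.sq_sub_sq (q ^ d) 1
    rw [← pow_mul, one_pow, mul_comm d 2] at this
    rw [this, mul_comm]
  have hσσ : ∀ x : L, σ (σ x) = x := by
    intro x
    rw [hσ, hσ, ← pow_mul, ← pow_add, ← two_mul]
    have := Fintype.ofFinite L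
    have h3 := FiniteField.pow_card x
    rw [← Nat.card_eq_fintype_card, hcard] at h3
    exact h3
  let B : LinearMap.BilinForm F L := LinearMap.mk₂ F (fun x y => Algebra.trace F L (x * σ y))
    (fun x x' y => by simp only [add_mul, map_add])
    (fun c x y => by simp only [smul_mul_assoc, map_smul])
    (fun x y y' => by simp only [map_add, mul_add])
    (fun c x y => by simp only [map_smul, mul_smul_comm])
  have hB : ∀ x y, B x y = Algebra.trace F L (x * σ y) := fun x y => rfl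
  have htr : ∀ x : L, (∀ y : L, Algebra.trace F L (x * y) = 0) → x = 0 := by
    intro x hx
    exact (traceForm_nondegenerate F L).1 x hx
  have hsymm : ∀ x y, B x y = B y x := by
    intro x y
    rw [hB, hB, ← Algebra.trace_eq_of_algEquiv σ (x * σ y), map_mul, hσσ, mul_comm (σ x) y]
  have hQ : Nondeg (qf B) := by
    refine nondeg_qf h2 hsymm ?_
    intro x hx
    apply htr
    intro y
    have := hx (σ y)
    rw [hB, hσσ] at this
    exact this
  let z : Lˣ := ζ ^ (q ^ d - 1)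
  have hzord : orderOf z = q ^ d + 1 := by
    have h3 : orderOf ζ ≠ 0 := by
      rw [hζ, hfac]
      exact Nat.mul_ne_zero (by omega) (by omega)
    have h4 := orderOf_pow_of_dvd (x := ζ) (n := q ^ d - 1) (by omega) (by rw [hζ, hfac]; exact Dvd.intro _ rfl)
    rw [h4, hζ, hfac, Nat.mul_div_cancel_left _ (by omega)]
  have hzz : (z : L) * σ z = 1 := by
    rw [hσ, ← Units.val_pow_eq_pow_val, ← Units.val_mul, ← pow_succ', ← hzord, pow_orderOf_eq_one]
    rfl
  have hzζ : (z : L) * ζ = σ ζ := by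
    rw [hσ, ← Units.val_mul, ← pow_succ, Nat.sub_add_cancel hqd.le, Units.val_pow_eq_pow_val]
  have hg : ml F L z ∈ O (qf B) := by
    apply mem_O_qf
    intro x y
    rw [hB, hB, ml_apply, ml_apply, map_mul σ]
    congr 1
    linear_combination (x * σ y) * hzz
  have hnorm : Algebra.norm F (z : L) = 1 := by
    have h3 : Algebra.norm F (z : L) * Algebra.norm F (ζ : L) = 1 * Algebra.norm F (ζ : L) := by
      rw [one_mul, ← map_mul (Algebra.norm F), hzζ]
      exact Algebra.norm_eq_of_algEquiv σ _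
    exact mul_right_cancel₀ (by
      rw [Ne, Algebra.norm_eq_zero_iff]
      exact ζ.ne_zero) h3
  have hdet : LinearEquiv.det (ml F L z) = 1 := by
    apply Units.ext
    rw [det_ml, hnorm, Units.val_one]
  -- `1 + z`
  obtain ⟨y, hy⟩ : ∃ y : L, y = ζ + σ ζ := ⟨_, rfl⟩
  have hyz : (1 + (z : L)) * ζ = y := by rw [hy, add_mul, one_mul, hzζ]
  have hz1 : 1 + (z : L) ≠ 0 := by
    intro h
    have h3 : (z : L) = -1 := by linear_combination h
    have h4 : z ^ 2 = 1 := by
      apply Units.ext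
      rw [Units.val_pow_eq_pow_val, h3, Units.val_one]
      ring
    have h5 := Nat.le_of_dvd (by norm_num) (orderOf_dvd_of_pow_eq_one h4)
    omega
  have hy0 : y ≠ 0 := by
    rw [← hyz]
    exact mul_ne_zero hz1 ζ.ne_zero
  have hσy : σ y = y := by rw [hy, map_add, hσσ, add_comm]
  have hyq : y ^ (q ^ d - 1) = 1 := by
    apply mul_right_cancel₀ hy0
    rw [← pow_succ, Nat.sub_add_cancel hqd.le, ← hσ, hσy, one_mul]
  have hysq : IsSquare (Algebra.norm F y) := by
    rw [isSquare_norm_iff h2 hq he hd hcard hy0, pow_mul, hyq, one_pow]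
  have hζsq : ¬ IsSquare (Algebra.norm F (ζ : L)) := by
    rw [isSquare_norm_iff h2 hq he hd hcard ζ.ne_zero]
    intro h
    have h3 : ζ ^ ((q ^ d - 1) * ((q ^ d + 1) / 2)) = 1 := Units.ext (by rw [Units.val_pow_eq_pow_val, h, Units.val_one])
    have h4 := orderOf_dvd_of_pow_eq_one h3
    rw [hζ, hfac] at h4
    have h5 : (q ^ d + 1) ∣ (q ^ d + 1) / 2 := Nat.dvd_of_mul_dvd_mul_left (by omega) h4
    have h6 := Nat.le_of_dvd (by omega) h5
    omega
  have hdet1 : LinearMap.det (1 + en (ml F L z)) = Algebra.norm F (1 + (z : L)) := by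
    rw [Algebra.norm_apply]
    congr 1
    ext x
    show x + (z : L) * x = (1 + (z : L)) * x
    rw [add_mul, one_mul]
  have hne1 : Algebra.norm F (1 + (z : L)) ≠ 0 := by
    rw [Ne, Algebra.norm_eq_zero_iff]
    exact hz1
  have hsp := Cfsg.Agent.H899.O7.Zass.zass h2 hQ (by rw [hfr]; exact even_two_mul d) (finrank F L) hg hdet
    (by rw [hdet1]; exact hne1) (by omega)
  have hnsq : ¬ IsSquare (Algebra.norm F (1 + (z : L))) := by
    rintro ⟨a, ha⟩
    obtain ⟨b, hb⟩ := hysq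
    apply hζsq
    have h3 : Algebra.norm F (1 + (z : L)) * Algebra.norm F (ζ : L) = Algebra.norm F y := by
      rw [← map_mul (Algebra.norm F), hyz]
    have ha0 : a ≠ 0 := by
      rintro rfl
      rw [ha, mul_zero] at hne1
      exact hne1 rfl
    refine ⟨b / a, ?_⟩
    rw [ha, hb] at h3
    field_simp
    linear_combination h3
  rw [hdet1, quadraticChar_neg_one_iff_not_isSquare.2 hnsq] at hsp
  have hspin : spin (qf B) ⟨ml F L z, hg⟩ = -1 := by
    apply Units.ext
    rw [hsp]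
    rfl
  refine ⟨qf B, ml F L z, σ.toLinearEquiv, hQ, ⟨hg, hdet, hspin⟩, ?_, ?_, by rw [orderOf_ml, hzord]⟩
  · apply mem_O_qf
    intro x y
    rw [hB, hB]
    show Algebra.trace F L (σ x * σ (σ y)) = _
    rw [← map_mul, Algebra.trace_eq_of_algEquiv]
  · rw [mul_inv_eq_iff_eq_mul, eq_inv_mul_iff_mul_eq]
    ext x
    show (z : L) * σ ((z : L) * x) = σ x
    rw [map_mul, ← mul_assoc, hzz, one_mul]

/-- **The torus.** -/
theorem exists_model (h2 : (2 : F) ≠ 0) {d : ℕ} (hd : d ≠ 0) {V : Type*} [AddCommGroup V] [Module F V]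
    [FiniteDimensional F V] [Finite V] {Q : QuadraticForm F V} (hQ : Nondeg Q) (hn : finrank F V = 2 * d + 1) :
    ∃ g s : V ≃ₗ[F] V, El Q 1 s ∧ g ∈ O Q ∧ s * g * s⁻¹ = g⁻¹ ∧ orderOf g = Fintype.card F ^ d + 1 := by
  obtain ⟨p, hpF⟩ := CharP.exists F
  have hp : Fact p.Prime := ⟨CharP.char_is_prime F p⟩
  have : NeZero (2 * d) := ⟨by omega⟩
  let L := FiniteField.Extension F p (2 * d)
  have hfr : finrank F L = 2 * d := FiniteField.finrank_extension F p (2 * d)
  obtain ⟨Q₁, g₁, s₁, hQ₁, hg₁, hs₁, hgs, hord⟩ := model_core (L := L) h2 (q := Fintype.card F) (d := d) rfl hd hfr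
    (by rw [FiniteField.natCard_extension, Nat.card_eq_fintype_card])
    (FiniteField.Extension.frob F p (2 * d) ^ d) (by
      intro x
      have := FiniteField.Extension.frob_iterate_apply F p (2 * d) d (x := x)
      rw [Nat.card_eq_fintype_card] at this
      exact this)
  obtain ⟨c, hc0, hc⟩ := exists_oneF (F := F) h2 (d := dc Q * dc Q₁) (by
    rcases dc_cases hQ with h | h <;> rcases dc_cases hQ₁ with h' | h' <;> rw [h, h'] <;> simp)
  have hQc := nondeg_oneF h2 hc0
  have hQ₂ : Nondeg (Q₁.prod (oneF c)) := nondeg_prod hQ₁ hQc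
  obtain ⟨e, he⟩ := exists_iso h2 hQ₂ hQ (by rw [finrank_prod, hfr, finrank_self, hn]) (by
    rw [dc_prod, hc]
    rcases dc_cases hQ₁ with h' | h' <;> rw [h'] <;> ring)
  have h1F : El (oneF c) 1 (1 : F ≃ₗ[F] F) := El.one _
  obtain ⟨G, hG⟩ : ∃ G, G = cj e (pr g₁ (1 : F ≃ₗ[F] F)) := ⟨_, rfl⟩
  have hGE : El Q (-1) G := by
    have h3 := El.cj he (El.pr h2 hQ₁ hQc hg₁ h1F)
    rw [mul_one] at h3
    rw [hG]
    exact h3
  have hGord : orderOf G = Fintype.card F ^ d + 1 := by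
    rw [hG, orderOf_cj, orderOf_pr, orderOf_one, hord, Nat.lcm_one_right]
  obtain ⟨S, hS⟩ : ∃ S, S = cj e (pr s₁ (1 : F ≃ₗ[F] F)) := ⟨_, rfl⟩
  have hSO : S ∈ O Q := by
    rw [hS]
    exact cj_mem_O he (pr_mem_O hs₁ (O (oneF c)).one_mem)
  have hSG : S * G = G⁻¹ * S := by
    rw [eq_inv_mul_iff_mul_eq, hG, hS, ← cj_mul, ← cj_mul, ← pr_mul, ← pr_mul, mul_one, mul_one]
    congr 2
    rw [mul_inv_eq_iff_eq_mul, eq_inv_mul_iff_mul_eq] at hgs
    exact hgs
  -- determinant one
  have hneg : LinearEquiv.det (LinearEquiv.neg F : V ≃ₗ[F] V) = -1 := by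
    apply Units.ext
    rw [LinearEquiv.coe_det]
    have h3 : ((LinearEquiv.neg F : V ≃ₗ[F] V) : V →ₗ[F] V) = (-1 : F) • LinearMap.id := by
      ext x
      simp
    rw [h3, LinearMap.det_smul, LinearMap.det_id, mul_one, hn, Odd.neg_one_pow ⟨d, rfl⟩]
    rfl
  have hnegc : ∀ a : V ≃ₗ[F] V, LinearEquiv.neg F * a = a * LinearEquiv.neg F := by
    intro a
    ext x
    show -(a x) = a (-x)
    rw [map_neg]
  obtain ⟨S', hS'O, hS'd, hS'G⟩ : ∃ S' : V ≃ₗ[F] V, S' ∈ O Q ∧ LinearEquiv.det S' = 1 ∧ S' * G = G⁻¹ * S' := by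
    rcases Units.eq_or_eq_neg_of_sq_eq_sq _ _ ((det_sq hQ hSO).trans (one_pow 2).symm) with h3 | h3
    · exact ⟨S, hSO, h3, hSG⟩
    · refine ⟨LinearEquiv.neg F * S, (O Q).mul_mem (neg_mem_O Q) hSO, ?_, ?_⟩
      · rw [map_mul, hneg, h3, neg_mul_neg, one_mul]
      · rw [mul_assoc, hSG, ← mul_assoc, hnegc, mul_assoc]
  -- spinor sign one
  rcases Int.units_eq_one_or (spin Q ⟨S', hS'O⟩) with h3 | h3
  · refine ⟨G, S', ⟨hS'O, hS'd, h3⟩, hGE.1, ?_, hGord⟩
    rw [hS'G, mul_assoc, mul_inv_cancel, mul_one]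
  · refine ⟨G, S' * G, ?_, hGE.1, ?_, hGord⟩
    · have h4 := El.mul (Q := Q) ⟨hS'O, hS'd, h3⟩ hGE
      rw [neg_mul_neg, one_mul] at h4
      exact h4
    · rw [_root_.mul_inv_rev, mul_assoc S' G G]
      rw [show S' * (G * G) * (G⁻¹ * S'⁻¹) = S' * G * S'⁻¹ by group, hS'G, mul_assoc, mul_inv_cancel, mul_one]

end Cfsg.Agent.H170.EP
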